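import Groth.Prelude.Def_ResDeg
import Mathlib.AlgebraicGeometry.Morphisms.QuasiFinite
import Mathlib.AlgebraicGeometry.Morphisms.ClosedImmersion
import Mathlib.AlgebraicGeometry.Fiber
import Mathlib.RingTheory.Artinian.Module

/-!
The ring of functions of a reduced finite fibre has dimension the sum of the residue degrees.
-/

set_option autoImplicit false
set_option linter.style.haveILetI false
universe u

open AlgebraicGeometry CategoryTheory Limits

noncomputable section

namespace Groth.Agent.Pi1.H400.GenFibreRank

lemma finrank_eq_sum_quotient (K A : Type u) [CommRing K] (hK : IsField K) [CommRing A]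
    [Algebra K A] [Module.Finite K A] [IsReduced A] [Fintype (PrimeSpectrum A)] :
    Module.finrank K A = ∑ p : PrimeSpectrum A, Module.finrank K (A ⧸ p.asIdeal) := by
  let _ := hK.toField
  have : IsArtinianRing A := isArtinian_of_tower K inferInstance
  have : Fintype (MaximalSpectrum A) := Fintype.ofFinite _
  rw [((IsArtinianRing.equivPi A).restrictScalars K).toLinearEquiv.finrank_eq,
    Module.finrank_pi_fintype]
  exact (Fintype.sum_equiv IsArtinianRing.primeSpectrumEquivMaximalSpectrum _ _
    (fun p => rfl)).symm

section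

variable {X Y : Scheme.{u}} (f : X ⟶ Y) [LocallyQuasiFinite f] [QuasiCompact f]
    {K : CommRingCat.{u}} (hK : IsField K) (β : Spec K ⟶ Y)

include hK in
lemma isLocallyArtinian_spec : IsLocallyArtinian (Spec K) := by
  let _ := hK.toField
  have : IsArtinianRing K := inferInstance
  exact inferInstance

include hK in
lemma isFinite_snd : IsFinite (pullback.snd f β) := by
  have := isLocallyArtinian_spec hK
  exact IsFinite.of_locallyQuasiFinite _

include hK in
lemma key (z : Y) (ε : Y.residueField z ⟶ K) [IsIso ε]
    (hβ : β = Spec.map ε ≫ Y.fromSpecResidueField z)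
    (p : ↥(pullback f β)) (hz : f (pullback.fst f β p) = z) :
    letI := (((pullback.snd f β).appTop).hom.comp (Scheme.ΓSpecIso K).inv.hom).toAlgebra
    Module.finrank K (Γ(pullback f β, ⊤) ⧸ ((pullback f β).toSpecΓ p).asIdeal) =
      EGA4loc.residueDegree f (pullback.fst f β p) := by
  letI := (((pullback.snd f β).appTop).hom.comp (Scheme.ΓSpecIso K).inv.hom).toAlgebra
  have hF := isFinite_snd f hK β
  have hArt := isLocallyArtinian_spec hK
  have hArt' : IsLocallyArtinian (pullback f β) := .of_locallyQuasiFinite (pullback.snd f β)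
  have hA : IsAffine (pullback f β) := isAffine_of_isAffineHom (pullback.snd f β)
  have hβpre : IsPreimmersion β := by rw [hβ]; infer_instance
  have hpre : IsPreimmersion (pullback.fst f β) := inferInstance
  subst hz
  have hcomp : X.fromSpecResidueField (pullback.fst f β p) ≫ f =
      Spec.map (inv ε ≫ f.residueFieldMap (pullback.fst f β p)) ≫ β := by
    refine Eq.trans ?_ (congrArg
      (Spec.map (inv ε ≫ f.residueFieldMap (pullback.fst f β p)) ≫ ·) hβ).symm
    simp only
    rw [← Category.assoc, ← Spec.map_comp, IsIso.hom_inv_id_assoc,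
      Scheme.Hom.SpecMap_residueFieldMap_fromSpecResidueField]
  let r : Spec (X.residueField (pullback.fst f β p)) ⟶ pullback f β :=
    pullback.lift (X.fromSpecResidueField (pullback.fst f β p))
      (Spec.map (inv ε ≫ f.residueFieldMap (pullback.fst f β p))) hcomp
  have hr1 : r ≫ pullback.fst f β = X.fromSpecResidueField (pullback.fst f β p) :=
    pullback.lift_fst _ _ _
  have hr2 : r ≫ pullback.snd f β =
      Spec.map (inv ε ≫ f.residueFieldMap (pullback.fst f β p)) := pullback.lift_snd _ _ _
  have hrpre : IsPreimmersion r := by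
    have : IsPreimmersion (r ≫ pullback.fst f β) := by rw [hr1]; infer_instance
    exact .of_comp r (pullback.fst f β)
  have hrc : IsClosedImmersion r := .of_isPreimmersion r (isClosed_discrete _)
  have hrs : Function.Surjective r.appTop :=
    (IsClosedImmersion.isAffine_surjective_of_isAffine r).2
  let ψ : Γ(pullback f β, ⊤) →+* X.residueField (pullback.fst f β p) :=
    (r.appTop ≫ (Scheme.ΓSpecIso (X.residueField (pullback.fst f β p))).hom).hom
  have hψ : Function.Surjective ψ :=
    (ConcreteCategory.bijective_of_isIso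
      (Scheme.ΓSpecIso (X.residueField (pullback.fst f β p))).hom).2.comp hrs
  have hrp : r (IsLocalRing.closedPoint _) = p := by
    apply (pullback.fst f β).isEmbedding.injective
    rw [← Scheme.Hom.comp_apply, hr1]
    simp
  have hker : ((pullback f β).toSpecΓ p).asIdeal = RingHom.ker ψ := by
    conv_lhs => rw [← hrp]
    rw [← Scheme.Hom.comp_apply, Scheme.toSpecΓ_naturality, ← SpecMap_ΓSpecIso_hom,
      ← Spec.map_comp, RingHom.ker_eq_comap_bot, ← IsLocalRing.maximalIdeal_eq_bot]
    rfl
  let i : K ≃+* Y.residueField (f (pullback.fst f β p)) :=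
    (asIso ε).symm.commRingCatIsoToRingEquiv
  let j : (Γ(pullback f β, ⊤) ⧸ ((pullback f β).toSpecΓ p).asIdeal) ≃+*
      X.residueField (pullback.fst f β p) :=
    (Ideal.quotEquivOfEq hker).trans (RingHom.quotientKerEquivOfSurjective hψ)
  let _ := (f.residueFieldMap (pullback.fst f β p)).hom.toAlgebra
  have h1 : (Scheme.ΓSpecIso K).inv ≫ (pullback.snd f β).appTop ≫ r.appTop ≫
      (Scheme.ΓSpecIso (X.residueField (pullback.fst f β p))).hom =
      inv ε ≫ f.residueFieldMap (pullback.fst f β p) := by
    have h2 : (pullback.snd f β).appTop ≫ r.appTop = (Spec.map (inv ε ≫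
        f.residueFieldMap (pullback.fst f β p))).appTop := by
      rw [← Scheme.Hom.comp_appTop, hr2]
    rw [reassoc_of% h2, ← Scheme.ΓSpecIso_inv_naturality_assoc, Iso.inv_hom_id, Category.comp_id]
  refine Algebra.finrank_eq_of_equiv_equiv i j ?_
  ext a
  exact (DFunLike.congr_fun (congrArg CommRingCat.Hom.hom h1) a).symm

include hK in
theorem finrank_pullback (z : Y) (ε : Y.residueField z ⟶ K) [IsIso ε]
    (hβ : β = Spec.map ε ≫ Y.fromSpecResidueField z) [IsReduced (pullback f β)]
    (hfin : (f.base ⁻¹' {z}).Finite) :
    letI := (((pullback.snd f β).appTop).hom.comp (Scheme.ΓSpecIso K).inv.hom).toAlgebra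
    Module.finrank K Γ(pullback f β, ⊤) = ∑ x ∈ hfin.toFinset, EGA4loc.residueDegree f x := by
  letI := (((pullback.snd f β).appTop).hom.comp (Scheme.ΓSpecIso K).inv.hom).toAlgebra
  have hF := isFinite_snd f hK β
  have hA : IsAffine (pullback f β) := isAffine_of_isAffineHom (pullback.snd f β)
  have hβpre : IsPreimmersion β := by rw [hβ]; infer_instance
  have hpre : IsPreimmersion (pullback.fst f β) := inferInstance
  have hmf : Module.Finite K Γ(pullback f β, ⊤) := by
    have h1 : ((pullback.snd f β).appTop).hom.Finite := (pullback.snd f β).finite_appTop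
    exact h1.comp (RingHom.Finite.of_surjective _
      (ConcreteCategory.bijective_of_isIso (Scheme.ΓSpecIso K).inv).2)
  have hArt : IsArtinianRing Γ(pullback f β, ⊤) := by
    let _ := hK.toField
    exact isArtinian_of_tower K inferInstance
  have : Fintype (PrimeSpectrum Γ(pullback f β, ⊤)) := Fintype.ofFinite _
  rw [finrank_eq_sum_quotient K Γ(pullback f β, ⊤) hK]
  have hβz : ∀ w : Spec K, β w = z := by
    intro w
    rw [hβ, Scheme.Hom.comp_apply]
    exact Y.fromSpecResidueField_apply z (Spec.map ε w)
  have hpt : ∀ p : ↥(pullback f β), f (pullback.fst f β p) = z := by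
    intro p
    rw [← Scheme.Hom.comp_apply, pullback.condition, Scheme.Hom.comp_apply]
    exact hβz _
  let T : ↥(pullback f β) ≃ PrimeSpectrum Γ(pullback f β, ⊤) :=
    Equiv.ofBijective (pullback f β).toSpecΓ
      ⟨(pullback f β).toSpecΓ.isEmbedding.injective, (pullback f β).toSpecΓ.surjective⟩
  refine Finset.sum_bij (fun q _ => pullback.fst f β (T.symm q)) ?_ ?_ ?_ ?_
  · intro q _
    simpa using hpt _
  · intro q _ q' _ h
    exact T.symm.injective ((pullback.fst f β).isEmbedding.injective h)
  · intro x hx
    have hx' : f x = z := by simpa using hx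
    have h1 : x ∈ Set.range (pullback.fst f β) := by
      rw [Scheme.Pullback.range_fst]
      have : Nonempty (Spec K) := by
        let _ := hK.toField
        exact ⟨IsLocalRing.closedPoint K⟩
      exact ⟨this.some, (hβz _).trans hx'.symm⟩
    obtain ⟨p, rfl⟩ := h1
    exact ⟨T p, Finset.mem_univ _, by rw [T.symm_apply_apply]⟩
  · intro q _
    obtain ⟨p, rfl⟩ := T.surjective q
    rw [T.symm_apply_apply]
    exact key f hK β z ε hβ p (hpt p)

end

end Groth.Agent.Pi1.H400.GenFibreRank
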