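import Groth.Agent.UnramA.SepDegPoints
import Groth.Agent.UnramA.UnibranchSpec
import Mathlib.AlgebraicGeometry.Morphisms.QuasiFinite
import Mathlib.FieldTheory.IsAlgClosed.Basic

/-!
The number of points of the fibre of a quasi-finite morphism over a geometric point is the sum of
the separable residue degrees.
-/

set_option autoImplicit false
universe u

open AlgebraicGeometry CategoryTheory Limits

noncomputable section

namespace Groth.Agent.Pi1.H400.GeomFibreCard

open Groth.Agent.UnramA.SepDegPoints Groth.Agent.UnramA.UnibranchSpec

/-- Over an algebraically closed field the residue fields of a locally quasi-finite scheme are the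
base field. -/
lemma residue_bijective {P : Scheme.{u}} {F : Type u} [Field F] [IsAlgClosed F]
    (g : P ⟶ Spec (.of F)) [LocallyQuasiFinite g] (p : P) :
    Function.Bijective (Spec.preimage (P.fromSpecResidueField p ≫ g)).hom := by
  have ha : Spec.map (Spec.preimage (P.fromSpecResidueField p ≫ g)) =
      P.fromSpecResidueField p ≫ g := Spec.map_preimage _
  have hfin : IsFinite (Spec.map (Spec.preimage (P.fromSpecResidueField p ≫ g))) := by
    rw [ha]
    exact IsFinite.of_locallyQuasiFinite _
  rw [IsFinite.SpecMap_iff] at hfin
  exact IsAlgClosed.ringHom_bijective_of_isIntegral _ hfin.to_isIntegral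

/-- Sections of a locally quasi-finite scheme over an algebraically closed field are its points. -/
lemma section_bijective {P : Scheme.{u}} {F : Type u} [Field F] [IsAlgClosed F]
    (g : P ⟶ Spec (.of F)) [LocallyQuasiFinite g] :
    Function.Bijective (fun s : {s : Spec (.of F) ⟶ P // s ≫ g = 𝟙 _} =>
      s.1 (IsLocalRing.closedPoint F)) := by
  constructor
  · rintro ⟨s, hs⟩ ⟨s', hs'⟩ h
    simp only at h
    apply Subtype.ext
    change s = s'
    obtain ⟨p, hp⟩ : ∃ p, s (IsLocalRing.closedPoint F) = p := ⟨_, rfl⟩
    obtain ⟨φ, hφ⟩ := exists_eq_fromSpecResidueField s p hp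
    obtain ⟨φ', hφ'⟩ := exists_eq_fromSpecResidueField s' p (h.symm.trans hp)
    have hb := residue_bijective g p
    set a := Spec.preimage (P.fromSpecResidueField p ≫ g) with ha
    have ha' : Spec.map a = P.fromSpecResidueField p ≫ g := Spec.map_preimage _
    have h1 : a ≫ φ = 𝟙 _ := by
      apply Spec.map_injective
      rw [Spec.map_comp, ha', ← Category.assoc, ← hφ, hs, Spec.map_id]
    have h2 : a ≫ φ' = 𝟙 _ := by
      apply Spec.map_injective
      rw [Spec.map_comp, ha', ← Category.assoc, ← hφ', hs', Spec.map_id]
    have h3 : φ = φ' := by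
      ext x
      obtain ⟨y, rfl⟩ := hb.2 x
      exact (DFunLike.congr_fun (congrArg CommRingCat.Hom.hom h1) y).trans
        (DFunLike.congr_fun (congrArg CommRingCat.Hom.hom h2) y).symm
    rw [hφ, hφ', h3]
  · intro p
    have hb := residue_bijective g p
    set a := Spec.preimage (P.fromSpecResidueField p ≫ g) with ha
    have ha' : Spec.map a = P.fromSpecResidueField p ≫ g := Spec.map_preimage _
    have : IsIso a := (ConcreteCategory.isIso_iff_bijective _).mpr hb
    refine ⟨⟨Spec.map (inv a) ≫ P.fromSpecResidueField p, ?_⟩, ?_⟩
    · rw [Category.assoc, ← ha', ← Spec.map_comp, IsIso.hom_inv_id, Spec.map_id]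
    · simp

/-- Points over `γ` correspond to points of the fibre. -/
lemma card_pullback {X Y : Scheme.{u}} (f : X ⟶ Y) [LocallyQuasiFinite f]
    [LocallyOfFiniteType f] [QuasiCompact f] {F : Type u} [Field F] [IsAlgClosed F]
    (γ : Spec (.of F) ⟶ Y) (hfin : (f.base ⁻¹' {γ (IsLocalRing.closedPoint F)}).Finite) :
    Nat.card ↥(pullback f γ) = ∑ z ∈ hfin.toFinset, EGA4loc.residueSepDegree f z := by
  rw [← card_pts f γ _ hfin (fun z hz => hz.symm)
    (fun z hz => isFinAt_of_quasiFiniteAt f z (f.quasiFiniteAt z))]
  have e1 := Nat.card_congr (Equiv.ofBijective _ (section_bijective (pullback.snd f γ)))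
  rw [← e1]
  refine Nat.card_congr ?_
  exact
    { toFun := fun s => ⟨s.1 ≫ pullback.fst f γ, by
        rw [Category.assoc, pullback.condition, ← Category.assoc, s.2, Category.id_comp], by
        change f _ = _
        rw [← Scheme.Hom.comp_apply, Category.assoc, pullback.condition, ← Category.assoc, s.2,
          Category.id_comp]⟩
      invFun := fun t => ⟨pullback.lift t.1 (𝟙 _) (by rw [t.2.1, Category.id_comp]),
        pullback.lift_snd _ _ _⟩
      left_inv := fun s => by
        apply Subtype.ext
        apply pullback.hom_ext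
        · exact pullback.lift_fst _ _ _
        · exact (pullback.lift_snd _ _ _).trans s.2.symm
      right_inv := fun t => by
        apply Subtype.ext
        exact pullback.lift_fst _ _ _ }

end Groth.Agent.Pi1.H400.GeomFibreCard
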