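import Mathlib.AlgebraicGeometry.SpreadingOut
import Mathlib.AlgebraicGeometry.FunctionField
import Mathlib.AlgebraicGeometry.Noetherian
import Mathlib.AlgebraicGeometry.Restrict
import Mathlib.AlgebraicGeometry.ResidueField
import Mathlib.AlgebraicGeometry.Morphisms.Finite
import Mathlib.AlgebraicGeometry.Morphisms.Etale

/-!
Reduction to an integral open neighbourhood.
-/

set_option autoImplicit false
universe u

open AlgebraicGeometry CategoryTheory Limits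

noncomputable section

namespace Groth.Agent.Pi1.H400.Reduction

lemma exists_isIntegral_nhd (Y : Scheme.{u}) [IsLocallyNoetherian Y] (y : Y)
    [IsDomain (Y.presheaf.stalk y)] :
    ∃ V : Y.Opens, y ∈ V ∧ IsIntegral (V : Scheme.{u}) := by
  obtain ⟨V, hy, hV, hinj⟩ := Y.exists_germ_injective y
  have h1 : IsDomain Γ(Y, V) := hinj.isDomain (Y.presheaf.germ V y hy).hom
  have h2 : IsDomain Γ(V, ⊤) :=
    V.topIso.commRingCatIsoToRingEquiv.injective.isDomain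
      V.topIso.commRingCatIsoToRingEquiv.toRingHom
  have : Nonempty V := ⟨⟨y, hy⟩⟩
  have : IsAffine V := hV
  exact ⟨V, hy, isIntegral_of_isAffine_of_isDomain V⟩

lemma specializes_iff_of_isOpenImmersion {X : Scheme.{u}} (U : X.Opens) (a b : U) :
    a ⤳ b ↔ a.1 ⤳ b.1 := by
  exact (Topology.IsInducing.subtypeVal.specializes_iff).symm

lemma hdom_restrict {X Y : Scheme.{u}} (f : X ⟶ Y) [IrreducibleSpace Y]
    (hdom : ∀ x : X, (∀ x' : X, x' ⤳ x → x' = x) → f.base x = genericPoint Y)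
    (V : Y.Opens) [IsIntegral (V : Scheme.{u})] :
    ∀ Z ∈ irreducibleComponents ↥(f ⁻¹ᵁ V : Scheme.{u}),
      genericPoint (V : Scheme.{u}) ∈ (f ∣_ V).base '' Z := by
  intro Z hZ
  have hirr : IsIrreducible Z := hZ.1
  have hcl : IsClosed Z := isClosed_of_mem_irreducibleComponents Z hZ
  obtain ⟨ξ, hξ⟩ := QuasiSober.sober hirr hcl
  refine ⟨ξ, hξ.mem, ?_⟩
  apply V.ι.isOpenEmbedding.injective
  rw [genericPoint_eq_of_isOpenImmersion V.ι]
  rw [← Scheme.Hom.comp_apply, morphismRestrict_ι, Scheme.Hom.comp_apply]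
  refine hdom _ ?_
  intro x' hx'
  have hmem : x' ∈ f ⁻¹ᵁ V := hx'.mem_open (f ⁻¹ᵁ V).isOpen ξ.2
  have h1 : (⟨x', hmem⟩ : (f ⁻¹ᵁ V : X.Opens)) ⤳ ξ :=
    (specializes_iff_of_isOpenImmersion (f ⁻¹ᵁ V) ⟨x', hmem⟩ ξ).2 hx'
  have h2 : Z ⊆ closure {(⟨x', hmem⟩ : (f ⁻¹ᵁ V : X.Opens))} := by
    rw [← hξ.def]
    exact closure_minimal (Set.singleton_subset_iff.2 h1.mem_closure) isClosed_closure
  have h3 : closure {(⟨x', hmem⟩ : (f ⁻¹ᵁ V : X.Opens))} = Z :=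
    (hZ.2 isIrreducible_singleton.closure h2).antisymm h2
  have h4 : ξ ⤳ (⟨x', hmem⟩ : (f ⁻¹ᵁ V : X.Opens)) := by
    rw [specializes_iff_mem_closure, hξ.def, ← h3]
    exact subset_closure rfl
  exact congrArg Subtype.val (h1.antisymm h4).eq

lemma restrict_restrict {X Y : Scheme.{u}} (f : X ⟶ Y) (P : MorphismProperty Scheme.{u})
    [P.RespectsIso] (V : Y.Opens) (W : (V : Scheme.{u}).Opens) :
    P (f ∣_ V ∣_ W) ↔ P (f ∣_ (V.ι ''ᵁ W)) :=
  P.arrow_mk_iso_iff (morphismRestrictRestrict f V W)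

lemma isPullback_restrict_of_le {X Y : Scheme.{u}} (f : X ⟶ Y) {V W : Y.Opens} (h : V ≤ W) :
    IsPullback (X.homOfLE (f.preimage_mono h)) (f ∣_ V) (f ∣_ W) (Y.homOfLE h) := by
  refine IsPullback.of_right (h₁₂ := (f ⁻¹ᵁ W).ι) (v₁₃ := f) (h₂₂ := W.ι) ?_ ?_ ?_
  · rw [Scheme.homOfLE_ι, Scheme.homOfLE_ι]
    exact (isPullback_morphismRestrict f V).flip
  · exact (morphismRestrict_homOfLE f V W h).symm
  · exact (isPullback_morphismRestrict f W).flip

lemma exists_restrict_iff {X Y : Scheme.{u}} (f : X ⟶ Y) (V : Y.Opens) (y : Y) (hy : y ∈ V) :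
    (∃ U : Y.Opens, y ∈ U ∧ IsFinite (f ∣_ U) ∧ Etale (f ∣_ U)) ↔
    ∃ U : (V : Scheme.{u}).Opens, (⟨y, hy⟩ : V) ∈ U ∧ IsFinite (f ∣_ V ∣_ U) ∧
      Etale (f ∣_ V ∣_ U) := by
  constructor
  · rintro ⟨U, hyU, h1, h2⟩
    have hle : V.ι ''ᵁ (V.ι ⁻¹ᵁ U) ≤ U := by
      rintro _ ⟨w, hw, rfl⟩
      exact hw
    refine ⟨V.ι ⁻¹ᵁ U, hyU, ?_, ?_⟩
    · rw [restrict_restrict f @IsFinite]
      exact MorphismProperty.of_isPullback (P := @IsFinite) (isPullback_restrict_of_le f hle) h1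
    · rw [restrict_restrict f @Etale]
      exact MorphismProperty.of_isPullback (P := @Etale) (isPullback_restrict_of_le f hle) h2
  · rintro ⟨U, hyU, h1, h2⟩
    rw [restrict_restrict f @IsFinite] at h1
    rw [restrict_restrict f @Etale] at h2
    exact ⟨V.ι ''ᵁ U, ⟨_, hyU, rfl⟩, h1, h2⟩

end Groth.Agent.Pi1.H400.Reduction
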